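import Cfsg.Agent.H521.BMSevenHe
import Cfsg.Agent.H478.SporBaby

/-!
# `BD 7 2` for the Baby Monster (helper521, for S4826)
-/

set_option autoImplicit false
set_option maxRecDepth 100000

namespace Cfsg.Agent.H521.BMSeven

open Cfsg Cfsg.Agent.BpTab Cfsg.Agent.CpAutBFive Cfsg.Agent.MFive
open Cfsg.Agent.LThreeMB (fr Zx XX KChart.Cent KChart.pi KChart.chart)
open Cfsg.Agent.MonsterU Cfsg.Agent.MonsterU.Ch
open Cfsg.Agent.MonsterX Cfsg.Agent.MonsterX.MainBasic Cfsg.Agent.MonsterN Cfsg.Agent.MonsterP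
open Cfsg.Agent.MonsterU.Lam2 (L2)
open Cfsg.Spor (Co1)
open Cfsg.Agent.H133.PB Cfsg.Agent.H521.BMSevenAbs Cfsg.Agent.H521.BMSevenHe
open Subgroup (centralizer zpowers mem_centralizer_singleton_iff center)

universe u v

theorem mem_center_two {X : Type*} [Group X] (h : Nat.card ↥(center X) = 2) {t : X} (ht : t ∈ center X) (ht1 : t ≠ 1)
    (g : X) : g ∈ center X ↔ g = 1 ∨ g = t := by
  constructor
  · intro hg
    by_contra hc
    push Not at hc
    have hf : Finite ↥(center X) := Nat.finite_of_card_ne_zero (by rw [h]; norm_num)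
    have := Fintype.ofFinite ↥(center X)
    classical
    have h1 : ({⟨1, one_mem _⟩, ⟨t, ht⟩, ⟨g, hg⟩} : Finset ↥(center X)).card = 3 := by
      rw [Finset.card_eq_three]
      refine ⟨_, _, _, ?_, ?_, ?_, rfl⟩
      · intro h2; exact ht1 (congrArg Subtype.val h2).symm
      · intro h2; exact hc.1 (congrArg Subtype.val h2).symm
      · intro h2; exact hc.2 (congrArg Subtype.val h2).symm
    have h3 := Finset.card_le_univ ({⟨1, one_mem _⟩, ⟨t, ht⟩, ⟨g, hg⟩} : Finset ↥(center X))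
    rw [h1, ← Nat.card_eq_fintype_card, h] at h3
    omega
  · rintro (rfl | rfl)
    · exact one_mem _
    · exact ht

/-- transport by a conjugation -/
theorem bd_of_conj {M : Type u} [Group M] [Finite M] {t : M} (ht : orderOf t = 2) {B : Type v} [Group B] [Finite B]
    (h2 : Nat.card ↥(center ↥(centralizer ({t} : Set M))) = 2)
    (e : ↥(centralizer ({t} : Set M)) ⧸ center ↥(centralizer ({t} : Set M)) ≃* B) {x s : M} (g : M)
    (hs : g * s * g⁻¹ = t) (hx : orderOf x = 7) (hxs : x * s = s * x)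
    (ψ : ↥(centralizer ({x} : Set M)) →* Cfsg.Spor.He) (hψ : Function.Surjective ψ)
    (hψk : ∀ c : ↥(centralizer ({x} : Set M)), ψ c = 1 ↔ (c : M) ∈ zpowers x)
    (h3 : ψ ⟨s, mem_centralizer_singleton_iff.2 hxs.symm⟩ = Cfsg.Agent.KFacts.He.Lv.gn .a)
    (hB : 7 ^ 2 ∣ Nat.card B) : BD 7 2 B := by
  have h2' : Fact (Nat.Prime 2) := ⟨Nat.prime_two⟩
  have h7 : Fact (Nat.Prime 7) := ⟨by norm_num⟩
  have ht1 : t ≠ 1 := by
    intro h1
    rw [h1, orderOf_one] at ht
    exact absurd ht (by norm_num)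
  have hso : orderOf s = 2 := by
    rw [← ht, ← hs]
    exact ((MulAut.conj g).orderOf_eq s).symm
  let c1 : ↥(centralizer ({s} : Set M)) →* ↥(centralizer ({t} : Set M)) :=
    ((MulAut.conj g).toMonoidHom.comp (centralizer ({s} : Set M)).subtype).codRestrict _ fun u =>
      mem_centralizer_singleton_iff.2 (by
        show g * u * g⁻¹ * t = t * (g * u * g⁻¹)
        have h4 : (u : M) * s = s * u := mem_centralizer_singleton_iff.1 u.2
        rw [← hs]
        calc g * u * g⁻¹ * (g * s * g⁻¹) = g * ((u : M) * s) * g⁻¹ := by group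
          _ = g * (s * u) * g⁻¹ := by rw [h4]
          _ = _ := by group)
  have hc1 : ∀ u, (c1 u : M) = g * u * g⁻¹ := fun u => rfl
  have hc1s : Function.Surjective c1 := by
    intro w
    have h4 : (w : M) * t = t * w := mem_centralizer_singleton_iff.1 w.2
    refine ⟨⟨g⁻¹ * w * g, mem_centralizer_singleton_iff.2 ?_⟩, ?_⟩
    · have h5 : s = g⁻¹ * t * g := by rw [← hs]; group
      rw [h5]
      calc g⁻¹ * w * g * (g⁻¹ * t * g) = g⁻¹ * ((w : M) * t) * g := by group
        _ = g⁻¹ * (t * w) * g := by rw [h4]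
        _ = _ := by group
    · apply Subtype.ext
      rw [hc1]
      group
  let π : ↥(centralizer ({s} : Set M)) →* B :=
    e.toMonoidHom.comp ((QuotientGroup.mk' (center ↥(centralizer ({t} : Set M)))).comp c1)
  have hπ : Function.Surjective π := e.surjective.comp ((QuotientGroup.mk'_surjective _).comp hc1s)
  have htc : (⟨t, mem_centralizer_singleton_iff.2 rfl⟩ : ↥(centralizer ({t} : Set M))) ∈
      center ↥(centralizer ({t} : Set M)) := by
    rw [Subgroup.mem_center_iff]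
    intro u
    exact Subtype.ext (mem_centralizer_singleton_iff.1 u.2)
  have hπk : ∀ u : ↥(centralizer ({s} : Set M)), π u = 1 ↔ (u : M) = 1 ∨ (u : M) = s := by
    intro u
    have h4 : π u = 1 ↔ c1 u ∈ center ↥(centralizer ({t} : Set M)) := by
      show e (QuotientGroup.mk (c1 u)) = 1 ↔ _
      rw [e.map_eq_one_iff, QuotientGroup.eq_one_iff]
    rw [h4, mem_center_two h2 htc (fun h5 => ht1 (congrArg Subtype.val h5))]
    have h5 : c1 u = 1 ↔ (u : M) = 1 := by
      constructor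
      · intro h6'
        have h6 : g * (u : M) * g⁻¹ = 1 := congrArg Subtype.val h6'
        calc (u : M) = g⁻¹ * (g * u * g⁻¹) * g := by group
          _ = 1 := by rw [h6]; group
      · intro h6
        apply Subtype.ext
        rw [hc1, h6]
        show g * 1 * g⁻¹ = 1
        group
    have h6 : c1 u = ⟨t, mem_centralizer_singleton_iff.2 rfl⟩ ↔ (u : M) = s := by
      rw [← Subtype.coe_inj, hc1]
      show g * u * g⁻¹ = t ↔ _
      rw [← hs]
      constructor
      · intro h7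
        calc (u : M) = g⁻¹ * (g * u * g⁻¹) * g := by group
          _ = s := by rw [h7]; group
      · intro h7
        rw [h7]
    rw [h5, h6]
  exact bd_cover (p := 7) (q := 2) (by norm_num) hx hso hxs π hπ hπk ψ hψ hψk h3 (QuotientGroup.mk' Za)
    (QuotientGroup.mk'_surjective _) (fun c => mem_za c) (by norm_num) dzb_he hB

/-- **`BD 7 2` for the Baby Monster** -/
theorem bd_seven : BD 7 2 Spor.BabyMonster := by
  have hfin : Finite ↥InstData.M.G := G_finite LitFin.all.hO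
  obtain ⟨⟨h1, -, ⟨e⟩⟩, -⟩ := ModelB.fieldsKS LitFin.all KDone.lnk KDone.lft (NodesGrp.prel LitFin.H)
    (NodesNe.ne LitFin.H) LitFin.conj_ten Cfsg.Agent.S1704.result KDone.lnk.x₀_mem
  obtain ⟨g0, hg0⟩ := ModelB.exists_conj_t LitFin.all.hG LitFin.all.hR KDone.lnk KDone.lft KDone.lnk.x₀_mem
  have hN := NotCT.Orders.b (K := Spor.BabyMonster) ⟨MulEquiv.refl _⟩
  have hBf : Finite Spor.BabyMonster := Nat.finite_of_card_ne_zero (by rw [hN]; norm_num)
  have h := KChart.chart KDone.lft MFive.Row.hc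
  have hp : Nat.Prime 7 := by norm_num
  have h7 : Fact (Nat.Prime 7) := ⟨hp⟩
  have hv : IsConj BpSpor.BCover.t (KDone.K.ι KLinkInst.x₀) := isConj_iff.2 ⟨g0, hg0⟩
  have ht := RowB.orderOf_t hv
  have hnt := RowB.not_conj hv
  -- an element of order 7 commuting with `t`
  obtain ⟨y', hy'⟩ : ∃ y' : ↥(centralizer ({KDone.K.ι KLinkInst.x₀} : Set ↥InstData.M.G)), orderOf y' = 7 := by
    refine exists_prime_orderOf_dvd_card' 7 ?_
    have h3 := Subgroup.card_eq_card_quotient_mul_card_subgroup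
      (center ↥(centralizer ({KDone.K.ι KLinkInst.x₀} : Set ↥InstData.M.G)))
    rw [h3, Nat.card_congr e.toEquiv, hN]
    exact Dvd.dvd.mul_right (by norm_num) _
  obtain ⟨y, hy⟩ : ∃ y : ↥InstData.M.G, (y' : ↥InstData.M.G) = y := ⟨_, rfl⟩
  have hyo : orderOf y = 7 := by rw [← hy, Subgroup.orderOf_coe, hy']
  have hyt : y * KDone.K.ι KLinkInst.x₀ = KDone.K.ι KLinkInst.x₀ * y := by
    rw [← hy]
    exact mem_centralizer_singleton_iff.1 y'.2
  have he : 2 ∣ Nat.card ↥(centralizer ({y} : Set ↥InstData.M.G)) := by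
    have h3 : orderOf (⟨KDone.K.ι KLinkInst.x₀, mem_centralizer_singleton_iff.2 hyt.symm⟩ :
        ↥(centralizer ({y} : Set ↥InstData.M.G))) = 2 := by
      rw [← Subgroup.orderOf_coe]
      exact ht
    rw [← h3]
    exact orderOf_dvd_natCard _
  obtain ⟨g, hg⟩ := MSevenT.hex7 y hyo he
  have h3 : (g⁻¹ * y * g) * KDone.K.z = KDone.K.z * (g⁻¹ * y * g) := by
    calc (g⁻¹ * y * g) * KDone.K.z = g⁻¹ * (y * (g * KDone.K.z * g⁻¹)) * g := by group
      _ = g⁻¹ * ((g * KDone.K.z * g⁻¹) * y) * g := by rw [hg]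
      _ = KDone.K.z * (g⁻¹ * y * g) := by group
  obtain ⟨x', hx'⟩ : ∃ x' : centralizer ({KDone.K.z} : Set ↥InstData.M.G), (x' : ↥InstData.M.G) = g⁻¹ * y * g :=
    ⟨⟨g⁻¹ * y * g, mem_centralizer_singleton_iff.2 h3⟩, rfl⟩
  have h4 : orderOf (g⁻¹ * y * g) = 7 := by
    have h6 := MulEquiv.orderOf_eq (MulAut.conj g⁻¹) y
    rw [MulAut.conj_apply, inv_inv] at h6
    rw [h6, hyo]
  have hx7 : orderOf x' = 7 := by rw [← Subgroup.orderOf_coe, hx', h4]
  set s : ↥InstData.M.G := g⁻¹ * KDone.K.ι KLinkInst.x₀ * g with hs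
  have hxs : (x' : ↥InstData.M.G) * s = s * x' := by
    rw [hx', hs]
    calc g⁻¹ * y * g * (g⁻¹ * KDone.K.ι KLinkInst.x₀ * g) = g⁻¹ * (y * KDone.K.ι KLinkInst.x₀) * g := by group
      _ = g⁻¹ * (KDone.K.ι KLinkInst.x₀ * y) * g := by rw [hyt]
      _ = _ := by group
  have hso : orderOf s = 2 := by
    have h6 := MulEquiv.orderOf_eq (MulAut.conj g⁻¹) (KDone.K.ι KLinkInst.x₀)
    rw [MulAut.conj_apply, inv_inv] at h6
    rw [hs, h6, ht]
  have hgs : g * s * g⁻¹ = KDone.K.ι KLinkInst.x₀ := by rw [hs]; group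
  have hns : ∀ d : ↥InstData.M.G, d * s * d⁻¹ ≠ KDone.K.z := by
    intro d hd
    refine hnt (d * g⁻¹) ?_
    calc d * g⁻¹ * KDone.K.ι KLinkInst.x₀ * (d * g⁻¹)⁻¹ = d * (g⁻¹ * KDone.K.ι KLinkInst.x₀ * g) * d⁻¹ := by group
      _ = KDone.K.z := hd
  rcases CpAutMSeven.Ranks.hranks _ (MFive.orderOf_pi h hp (by decide) hx7) with h8 | h8
  · obtain ⟨d, hd⟩ := BpMon.BSeven.conj_z hx7 h8 hso hxs
    exfalso
    refine hns d⁻¹ ?_
    rw [← hd]
    group
  · obtain ⟨e0⟩ := CpAutMSeven.ZeroComps.heSix x' hx7 h8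
    obtain ⟨c, hc⟩ := isConj_iff.1 (conj_a h hp (by norm_num) hx7 (by rw [h8]; norm_num) ⟨6, h8⟩ e0 hso hxs hns)
    let e1 : XX (x' : ↥InstData.M.G) ≃* Cfsg.Spor.He := e0.trans (MulAut.conj c⁻¹)
    refine bd_of_conj ht h1 e g hgs (by rw [Subgroup.orderOf_coe, hx7]) hxs
      (e1.toMonoidHom.comp (QuotientGroup.mk' (Zx (x' : ↥InstData.M.G))))
      (e1.surjective.comp (QuotientGroup.mk'_surjective _)) (fun u => ?_) ?_ (by rw [hN]; norm_num)
    · show e1 (QuotientGroup.mk u) = 1 ↔ _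
      rw [e1.map_eq_one_iff]
      exact Cfsg.Agent.LThreeMB.mk_eq_one (x := (x' : ↥InstData.M.G)) (g := (u : ↥InstData.M.G))
        (mem_centralizer_singleton_iff.1 u.2)
    · show c⁻¹ * e0 (Cfsg.Agent.LThreeMB.mk (x' : ↥InstData.M.G) hxs.symm) * (c⁻¹)⁻¹ = _
      rw [← hc]
      group

end Cfsg.Agent.H521.BMSeven
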