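import Cfsg.Agent.H521.BMSevenPsl

/-!
# `BD p q` for the quotient of `C(t)` by `⟨t⟩` (helper521, for S4826)
-/

set_option autoImplicit false

namespace Cfsg.Agent.H521.BMSevenAbs

open Subgroup Cfsg Cfsg.Agent Cfsg.Agent.H133.PB Cfsg.Agent.H521.BMSevenPsl

universe u v w z

/-- homomorphic images and normal subgroups -/
theorem bd_quot {p q : ℕ} [hq : Fact q.Prime] {C : Type u} [Group C] [Finite C] (L : Subgroup C) [hL : L.Normal]
    {K : Type v} [Group K] [Finite K] (f : C →* K) (hf : Function.Surjective f) {X : Type w} [Group X]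
    (Th : L →* X) (hTh : Function.Surjective Th) (hker : ∀ l : L, f l = 1 → Th l = 1) (hX : BD p q X) : BD p q K := by
  have hn : (L.map f).Normal := hL.map f hf
  refine BD.up (L.map f) ?_
  let g : L →* L.map f := f.subgroupMap L
  have hg : Function.Surjective g := f.subgroupMap_surjective L
  have hle : g.ker ≤ Th.ker := by
    intro l hl
    rw [MonoidHom.mem_ker] at hl ⊢
    exact hker l (congrArg Subtype.val hl)
  let h : L.map f →* X := g.liftOfSurjective hg ⟨Th, hle⟩
  have hh : ∀ l, h (g l) = Th l := fun l =>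
    g.liftOfRightInverse_comp_apply _ (Function.rightInverse_surjInv hg) ⟨Th, hle⟩ l
  refine hX.of_surjective h fun x => ?_
  obtain ⟨l, rfl⟩ := hTh x
  exact ⟨g l, hh l⟩

/-- **From `C_F(ψ t) / ⟨ψ t⟩` to `C(t) / ⟨t⟩`**, `ψ : C(x) → F` onto with kernel `⟨x⟩`. -/
theorem bd_cover {M : Type u} [Group M] [Finite M] {p : ℕ} [hp : Fact p.Prime] (hp2 : p ≠ 2) {x t : M}
    (hx : orderOf x = p) (ht : orderOf t = 2) (hxt : x * t = t * x) {B : Type v} [Group B] [Finite B]
    (π : ↥(centralizer ({t} : Set M)) →* B) (hπ : Function.Surjective π)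
    (hπk : ∀ g : ↥(centralizer ({t} : Set M)), π g = 1 ↔ (g : M) = 1 ∨ (g : M) = t)
    {F : Type w} [Group F] (ψ : ↥(centralizer ({x} : Set M)) →* F) (hψ : Function.Surjective ψ)
    (hψk : ∀ c : ↥(centralizer ({x} : Set M)), ψ c = 1 ↔ (c : M) ∈ zpowers x)
    {σ : F} (hσ' : ψ ⟨t, mem_centralizer_singleton_iff.2 hxt.symm⟩ = σ)
    {K : Type z} [Group K] (κ : ↥(centralizer ({σ} : Set F)) →* K)
    (hκ : Function.Surjective κ) (hκk : ∀ c : ↥(centralizer ({σ} : Set F)), κ c = 1 ↔ (c : F) = 1 ∨ (c : F) = σ)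
    {q : ℕ} [hq : Fact q.Prime] (hqp : q ≠ p) (h : DZB p q K) (hB : p ^ 2 ∣ Nat.card B) : BD p q B := by
  classical
  let t' : ↥(centralizer ({x} : Set M)) := ⟨t, mem_centralizer_singleton_iff.2 hxt.symm⟩
  have hσ : σ = ψ t' := hσ'.symm
  have htt : t * t = 1 := by rw [← pow_two, ← ht, pow_orderOf_eq_one]
  have ht1 : t ≠ 1 := by
    intro h1
    rw [h1, orderOf_one] at ht
    exact absurd ht (by norm_num)
  obtain ⟨m, hm⟩ : Odd p := hp.out.odd_of_ne_two hp2
  have htp : t ^ p = t := by rw [hm, pow_succ, pow_mul, pow_two, htt, one_pow, one_mul]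
  have hxp : x ^ p = 1 := by rw [← hx, pow_orderOf_eq_one]
  have hx1 : x ≠ 1 := by
    rintro rfl
    rw [orderOf_one] at hx
    exact hp.out.one_lt.ne hx
  -- elements commuting with `t` modulo `⟨x⟩`
  have hlift : ∀ c : ↥(centralizer ({x} : Set M)), ψ c * σ = σ * ψ c → (c : M) * t = t * c := by
    intro c hc
    have h1 : ψ (c * t' * c⁻¹ * t'⁻¹) = 1 := by
      rw [map_mul, map_mul, map_mul, map_inv, map_inv, ← hσ, hc]
      group
    obtain ⟨i, hi⟩ := (hψk _).1 h1
    have hi' : x ^ i = (c : M) * t * (c : M)⁻¹ * t⁻¹ := hi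
    have h2 : (c : M) * t * (c : M)⁻¹ = x ^ i * t := by rw [hi']; group
    have h3 : ((c : M) * t * (c : M)⁻¹) ^ p = x ^ i * t := by
      rw [conj_pow, htp, h2]
    have hc2 : Commute (x ^ i) t := (show Commute x t from hxt).zpow_left i
    have h4 : (x ^ i) ^ p = 1 := by rw [← zpow_natCast, ← zpow_mul, mul_comm, zpow_mul, zpow_natCast, hxp, one_zpow]
    rw [h2, hc2.mul_pow, h4, one_mul, htp] at h3
    rw [← h3] at h2
    calc (c : M) * t = (c : M) * t * (c : M)⁻¹ * c := by group
      _ = t * c := by rw [h2]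
  let i1 : ↥(centralizer ({x} : Set M) ⊓ centralizer ({t} : Set M)) →* ↥(centralizer ({x} : Set M)) :=
    inclusion inf_le_left
  let i2 : ↥(centralizer ({x} : Set M) ⊓ centralizer ({t} : Set M)) →* ↥(centralizer ({t} : Set M)) :=
    inclusion inf_le_right
  have hi : ∀ d, i1 d * t' = t' * i1 d := fun d => Subtype.ext (mem_centralizer_singleton_iff.1 d.2.2)
  let β : ↥(centralizer ({x} : Set M) ⊓ centralizer ({t} : Set M)) →* ↥(centralizer ({σ} : Set F)) :=
    (ψ.comp i1).codRestrict _ fun d => mem_centralizer_singleton_iff.2 (by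
      show ψ (i1 d) * σ = σ * ψ (i1 d)
      rw [hσ, ← map_mul, hi, map_mul])
  have hβ : Function.Surjective β := by
    rintro ⟨y, hy⟩
    obtain ⟨c, rfl⟩ := hψ y
    have h1 := hlift c (mem_centralizer_singleton_iff.1 hy)
    exact ⟨⟨c, c.2, mem_centralizer_singleton_iff.2 h1⟩, rfl⟩
  -- the element of order `p`
  let x' : ↥(centralizer ({t} : Set M)) := ⟨x, mem_centralizer_singleton_iff.2 hxt⟩
  set b := π x' with hb
  have hbo : orderOf b = p := by
    refine orderOf_eq_prime ?_ ?_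
    · rw [hb, ← map_pow]
      have h1 : x' ^ p = 1 := Subtype.ext hxp
      rw [h1, map_one]
    · intro h1
      rcases (hπk x').1 h1 with h2 | h2
      · exact hx1 h2
      · have h3 : x = t := h2
        rw [h3, ht] at hx
        exact hp2 hx.symm
  have hi' : ∀ d, i2 d * x' = x' * i2 d := fun d => Subtype.ext (mem_centralizer_singleton_iff.1 d.2.1)
  let α : ↥(centralizer ({x} : Set M) ⊓ centralizer ({t} : Set M)) →* ↥(centralizer ({b} : Set B)) :=
    (π.comp i2).codRestrict _ fun d => mem_centralizer_singleton_iff.2 (by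
      show π (i2 d) * π x' = π x' * π (i2 d)
      rw [← map_mul, hi', map_mul])
  have hα : Function.Surjective α := by
    rintro ⟨y, hy⟩
    obtain ⟨c, rfl⟩ := hπ y
    have h1 : π (c * x' * c⁻¹ * x'⁻¹) = 1 := by
      rw [map_mul, map_mul, map_mul, map_inv, map_inv, ← hb, mem_centralizer_singleton_iff.1 hy]
      group
    have hc : (c : M) * x = x * c := by
      rcases (hπk _).1 h1 with h2 | h2
      · have h3 : (c : M) * x * (c : M)⁻¹ * x⁻¹ = 1 := h2
        calc (c : M) * x = (c : M) * x * (c : M)⁻¹ * x⁻¹ * x * c := by group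
          _ = x * c := by rw [h3, one_mul]
      · exfalso
        have h3 : (c : M) * x * (c : M)⁻¹ * x⁻¹ = t := h2
        have h4 : (c : M) * x * (c : M)⁻¹ = t * x := by
          calc (c : M) * x * (c : M)⁻¹ = (c : M) * x * (c : M)⁻¹ * x⁻¹ * x := by group
            _ = t * x := by rw [h3]
        have h5 : ((c : M) * x * (c : M)⁻¹) ^ p = 1 := by rw [conj_pow, hxp, mul_one, mul_inv_cancel]
        rw [h4, (show Commute t x from hxt.symm).mul_pow, hxp, mul_one, htp] at h5
        exact ht1 h5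
    exact ⟨⟨c, mem_centralizer_singleton_iff.2 hc, c.2⟩, rfl⟩
  let f' := κ.comp β
  have hf' : Function.Surjective f' := hκ.comp hβ
  have hle : α.ker ≤ f'.ker := by
    intro d hd
    have h1 : π (i2 d) = 1 := congrArg Subtype.val (show α d = 1 from hd)
    rw [MonoidHom.mem_ker]
    show κ (β d) = 1
    rw [hκk]
    rcases (hπk _).1 h1 with h2 | h2
    · left
      show ψ (i1 d) = 1
      rw [show i1 d = 1 from Subtype.ext h2, map_one]
    · right
      show ψ (i1 d) = σ
      rw [hσ, show i1 d = t' from Subtype.ext h2]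
  let f : ↥(centralizer ({b} : Set B)) →* K := α.liftOfSurjective hα ⟨f', hle⟩
  have hfα : ∀ d, f (α d) = f' d := fun d =>
    α.liftOfRightInverse_comp_apply _ (Function.rightInverse_surjInv hα) ⟨f', hle⟩ d
  have hfs : Function.Surjective f := fun k => by
    obtain ⟨d, rfl⟩ := hf' k
    exact ⟨α d, hfα d⟩
  refine BD.of_elem hqp hbo hB f hfs ?_ h
  intro y
  obtain ⟨d, rfl⟩ := hα y
  rw [hfα]
  constructor
  · intro h1
    have h2 : κ (β d) = 1 := h1
    rw [hκk] at h2
    rcases h2 with h2 | h2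
    · have h3 : ψ (i1 d) = 1 := h2
      obtain ⟨j, hj⟩ := (hψk _).1 h3
      refine ⟨j, ?_⟩
      show b ^ j = π (i2 d)
      rw [hb, ← map_zpow]
      congr 1
      exact Subtype.ext hj
    · have h3 : ψ (i1 d * t'⁻¹) = 1 := by
        rw [map_mul, map_inv]
        have h4 : ψ (i1 d) = σ := h2
        rw [h4, hσ, mul_inv_cancel]
      obtain ⟨j, hj⟩ := (hψk _).1 h3
      have hj' : x ^ j = (d : M) * t⁻¹ := hj
      refine ⟨j, ?_⟩
      show b ^ j = π (i2 d)
      rw [hb, ← map_zpow]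
      have h5 : i2 d = x' ^ j * ⟨t, mem_centralizer_singleton_iff.2 rfl⟩ := by
        apply Subtype.ext
        show (d : M) = x ^ j * t
        rw [hj']; group
      rw [h5, map_mul, (hπk ⟨t, mem_centralizer_singleton_iff.2 rfl⟩).2 (Or.inr rfl), mul_one]
  · rintro ⟨j, hj⟩
    have hj' : b ^ j = π (i2 d) := hj
    rw [hb, ← map_zpow] at hj'
    have h1 : π (i2 d * (x' ^ j)⁻¹) = 1 := by rw [map_mul, map_inv, hj', mul_inv_cancel]
    show κ (β d) = 1
    rw [hκk]
    have hxj : (⟨x ^ j, mem_centralizer_singleton_iff.2 ((Commute.refl x).zpow_left j).eq⟩ :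
        ↥(centralizer ({x} : Set M))) = ⟨x, mem_centralizer_singleton_iff.2 rfl⟩ ^ j := Subtype.ext rfl
    have h3 : ψ ⟨x ^ j, mem_centralizer_singleton_iff.2 ((Commute.refl x).zpow_left j).eq⟩ = 1 :=
      (hψk _).2 ⟨j, rfl⟩
    rcases (hπk _).1 h1 with h2 | h2
    · left
      show ψ (i1 d) = 1
      have h4 : (d : M) * (x ^ j)⁻¹ = 1 := h2
      rw [show i1 d = ⟨x ^ j, mem_centralizer_singleton_iff.2 ((Commute.refl x).zpow_left j).eq⟩ from
        Subtype.ext (mul_inv_eq_one.1 h4), h3]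
    · right
      show ψ (i1 d) = σ
      have h4 : (d : M) * (x ^ j)⁻¹ = t := h2
      rw [hσ, show i1 d = t' * ⟨x ^ j, mem_centralizer_singleton_iff.2 ((Commute.refl x).zpow_left j).eq⟩ from
        Subtype.ext (show (d : M) = t * x ^ j from mul_inv_eq_iff_eq_mul.1 h4), map_mul, h3, mul_one]

end Cfsg.Agent.H521.BMSevenAbs
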