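import Cfsg.Agent.H521.BMSevenAbs
import Cfsg.Agent.BpMon.BSeven

/-!
# `DZB 7 2` for `C_He(2A)/⟨2A⟩`, and elements of order 7 of the Monster (helper521, for S4826)
-/

set_option autoImplicit false

namespace Cfsg.Agent.H521.BMSevenHe

open Cfsg Subgroup Cfsg.Agent.PreUniq Cfsg.Agent.PreUniqB Cfsg.Agent.LThreeMB Cfsg.Agent.MonsterU
open Cfsg.Agent.MonsterU.Ch Cfsg.Agent.BpTab
open Cfsg.Agent.MonsterU.Lam2 (L2)
open Cfsg.Spor (Co1)
open Cfsg.Agent.H133.PB Cfsg.Agent.H521.BMSevenPsl Cfsg.Agent.H521.BMSevenAbs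

universe u v

section he

open Cfsg.Spor.He Cfsg.Agent.KFacts.He.Lv Cfsg.Agent.KFacts.He.TwoACent Cfsg.Agent.KFacts.He.TwoAPlane

/-- the group `⟨a⟩` in its centralizer -/
abbrev Za : Subgroup ↥(centralizer ({gn .a} : Set Cfsg.Spor.He)) :=
  (zpowers (gn .a : Cfsg.Spor.He)).subgroupOf (centralizer ({gn .a} : Set Cfsg.Spor.He))

instance za_normal : Za.Normal := by
  refine ⟨fun n hn c => ?_⟩
  rw [mem_subgroupOf] at hn ⊢
  obtain ⟨k, hk⟩ := hn
  have h1 : (c : Cfsg.Spor.He) * gn .a = gn .a * c := mem_centralizer_singleton_iff.1 c.2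
  have h2 : (c : Cfsg.Spor.He) * n * (c : Cfsg.Spor.He)⁻¹ = n := by
    have h3 : (n : Cfsg.Spor.He) = (gn .a : Cfsg.Spor.He) ^ k := hk.symm
    have h4 : Commute (c : Cfsg.Spor.He) (n : Cfsg.Spor.He) := by
      rw [h3]
      exact (show Commute (c : Cfsg.Spor.He) (gn .a) from h1).zpow_right k
    rw [h4.eq, mul_inv_cancel_right]
  show (c : Cfsg.Spor.He) * n * (c : Cfsg.Spor.He)⁻¹ ∈ _
  rw [h2]
  exact ⟨k, hk⟩

theorem mem_za (c : ↥(centralizer ({gn .a} : Set Cfsg.Spor.He))) :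
    QuotientGroup.mk' Za c = 1 ↔ (c : Cfsg.Spor.He) = 1 ∨ (c : Cfsg.Spor.He) = gn .a := by
  rw [← MonoidHom.mem_ker, QuotientGroup.ker_mk', mem_subgroupOf]
  have haa : (gn .a : Cfsg.Spor.He) * gn .a = 1 := gn_mul_self .a
  constructor
  · rintro ⟨k, hk⟩
    have hk' : (gn .a : Cfsg.Spor.He) ^ k = c := hk
    have h2 : (gn .a : Cfsg.Spor.He) ^ (2 : ℤ) = 1 := by rw [zpow_two, haa]
    rcases Int.even_or_odd' k with ⟨m, rfl | rfl⟩
    · left
      rw [← hk', zpow_mul, h2, one_zpow]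
    · right
      rw [← hk', zpow_add, zpow_mul, h2, one_zpow, one_mul, zpow_one]
  · rintro (h | h)
    · rw [h]; exact one_mem _
    · rw [h]; exact mem_zpowers _

theorem card_cent_dvd : Nat.card ↥(centralizer ({gn .a} : Set Cfsg.Spor.He)) ∣ 161280 := by
  have hN : L ≤ centralizer ({gn .a} : Set Cfsg.Spor.He) := CTwoTab.He.L_le_cent
  have h1 := (L.subgroupOf (centralizer ({gn .a} : Set Cfsg.Spor.He))).card_mul_index
  rw [Nat.card_congr (subgroupOfEquivOfLe hN).toEquiv, CTwoTab.He.card_L] at h1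
  rw [← h1]
  exact (mul_dvd_mul_left _ Cfsg.Agent.BpMon.index_L).trans (by norm_num)

/-- **`C_He(2A)/⟨2A⟩`** -/
theorem dzb_he : DZB 7 2 (↥(centralizer ({gn .a} : Set Cfsg.Spor.He)) ⧸ Za) := by
  have h2 : Fact (Nat.Prime 2) := ⟨Nat.prime_two⟩
  have h7 : Fact (Nat.Prime 7) := ⟨by norm_num⟩
  have hfin := Cfsg.Agent.KFacts.He.Hyp.finHe
  have hN : L ≤ centralizer ({gn .a} : Set Cfsg.Spor.He) := CTwoTab.He.L_le_cent
  have hNn : (L.subgroupOf (centralizer ({gn .a} : Set Cfsg.Spor.He))).Normal := ⟨fun n hn c =>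
    mem_subgroupOf.2 (norm (mem_centralizer_singleton_iff.1 c.2) (mem_subgroupOf.1 hn))⟩
  refine DZB.of_BD ?_ ?_
  · refine bd_quot (L.subgroupOf (centralizer ({gn .a} : Set Cfsg.Spor.He))) (QuotientGroup.mk' Za)
      (QuotientGroup.mk'_surjective _) (Th.comp (subgroupOfEquivOfLe hN).toMonoidHom)
      (Th_surjective.comp (subgroupOfEquivOfLe hN).surjective) (fun l hl => ?_) bd_psl
    have h3 : (subgroupOfEquivOfLe hN l : ↥L) ∈ Th.ker := by
      rw [ker_Th, mem_subgroupOf]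
      rcases (mem_za _).1 hl with h4 | h4
      · have h5 : ((subgroupOfEquivOfLe hN l : ↥L) : Cfsg.Spor.He) = 1 := h4
        rw [h5]; exact one_mem _
      · have h5 : ((subgroupOfEquivOfLe hN l : ↥L) : Cfsg.Spor.He) = gn .a := h4
        rw [h5]; exact a_mem_V
    exact h3
  · intro hd
    have h3 : Nat.card (↥(centralizer ({gn .a} : Set Cfsg.Spor.He)) ⧸ Za) ∣ 161280 :=
      (Subgroup.card_quotient_dvd_card Za).trans card_cent_dvd
    have h4 := hd.trans h3
    norm_num at h4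

/-- conjugates of `a` are small -/
theorem small_conj {τ : Cfsg.Spor.He} (h3 : IsConj (gn .a) τ) : Cfsg.Agent.BpMon.Small τ := by
  obtain ⟨g, hg⟩ := isConj_iff.1 h3
  let f : MulAut Cfsg.Spor.He := MulAut.conj g
  have hf : f ((Cfsg.Agent.KFacts.He.Lv.gn .a)) = τ := hg
  intro P hP hc hn
  have h4 := Cfsg.Agent.BpMon.small_a (P.map f.symm.toMonoidHom) (hP.map _) (by
    rintro _ ⟨q, hq, rfl⟩
    apply f.injective
    show f (f.symm q * _) = f (_ * f.symm q)
    rw [map_mul, map_mul, f.apply_symm_apply, hf, hc q hq]) (by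
    rintro c hcc _ ⟨q, hq, rfl⟩
    refine ⟨f c * q * (f c)⁻¹, hn (f c) (by rw [← hf, ← map_mul, ← map_mul, hcc]) q hq, ?_⟩
    show f.symm (f c * q * (f c)⁻¹) = c * f.symm q * c⁻¹
    rw [map_mul, map_mul, map_inv, f.symm_apply_apply])
  rwa [Nat.card_congr (equivMapOfInjective _ _ f.symm.injective).toEquiv.symm] at h4

end he

variable {p : ℕ} {G : Type u} [Group G] {Q : Subgroup G} {z : G} {eta : G → L2}
  {pi : Subgroup.centralizer ({z} : Set G) →* Co1}

/-- **the image of `t` in `C(x)/⟨x⟩ ≅ He` is of class 2A, if `t` is not conjugate to `z`** -/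
theorem conj_a [Finite G] (h : Chart Q z eta pi) (hp : p.Prime) (hp2 : p ≠ 2)
    {x : Subgroup.centralizer ({z} : Set G)} (hx : orderOf x = p) (hfr : ¬ fr (pi x) ∣ 4)
    (hfr2 : ∃ k, fr (pi x) = 2 ^ k) (e : XX (x : G) ≃* Cfsg.Spor.He) {t : G}
    (ht : orderOf t = 2) (hxt : (x : G) * t = t * x) (hnt : ∀ d : G, d * t * d⁻¹ ≠ z) :
    IsConj (Cfsg.Agent.KFacts.He.Lv.gn .a) (e (mk (x : G) hxt.symm)) := by
  have hfin := Cfsg.Agent.KFacts.He.Hyp.finHe
  have ho : Odd p := hp.odd_of_ne_two hp2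
  have hxo : orderOf (x : G) = p := by rw [Subgroup.orderOf_coe, hx]
  have hxp : (x : G) ^ p = 1 := by rw [← hxo, pow_orderOf_eq_one]
  have htt : t * t = 1 := by rw [← pow_two, ← ht, pow_orderOf_eq_one]
  have ht1 : t ≠ 1 := by
    intro h1
    rw [h1, orderOf_one] at ht
    exact absurd ht (by norm_num)
  obtain ⟨m, hm⟩ := ho
  -- an involution commuting with `x` is not in `⟨x⟩`
  have hinv : ∀ s : G, s * s = 1 → s ≠ 1 → ∀ hs : s * (x : G) = x * s, mk (x : G) hs * mk (x : G) hs = 1 ∧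
      mk (x : G) hs ≠ 1 := by
    intro s hss hs1 hs
    refine ⟨?_, ?_⟩
    · rw [mk_mul hs hs (by rw [hss, one_mul, mul_one])]
      rw [mk_congr _ (by rw [one_mul, mul_one]) hss]
      rfl
    · intro h1
      obtain ⟨i, hi⟩ := (mk_eq_one hs).1 h1
      apply hs1
      have h2 : s ^ p = 1 := by rw [← hi, ← zpow_natCast, ← zpow_mul, mul_comm, zpow_mul, zpow_natCast, hxp, one_zpow]
      rwa [hm, pow_succ, pow_mul, pow_two, hss, one_pow, one_mul] at h2
  have hcl : ∀ (s : G), s * s = 1 → s ≠ 1 → ∀ hs : s * (x : G) = x * s,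
      IsConj CTwoTab.He.z (e (mk (x : G) hs)) ∨ IsConj (Cfsg.Agent.KFacts.He.Lv.gn .a) (e (mk (x : G) hs)) := by
    intro s hss hs1 hs
    obtain ⟨h1, h2⟩ := hinv s hss hs1 hs
    exact CTwoTab.He.classes (by rw [← map_mul, h1, map_one]) (fun h3 => h2 (e.injective (h3.trans (map_one e).symm)))
  rcases hcl t htt ht1 hxt.symm with h1 | h1
  · exfalso
    have hzz : z * z = 1 := h.large.z_sq
    have hzx : z * (x : G) = x * z := (mem_centralizer_singleton_iff.1 x.2).symm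
    rcases hcl z hzz h.large.z_ne hzx with h2 | h2
    · obtain ⟨c, hc⟩ := isConj_iff.1 (h1.symm.trans h2)
      obtain ⟨c, rfl⟩ := e.surjective c
      rw [← map_mul, ← map_inv, ← map_mul] at hc
      obtain ⟨g, hg, rfl⟩ := exists_mk c
      have hc2 := e.injective hc
      have h3 : mk (x : G) (conj_comm hg hxt.symm) = mk (x : G) hzx := hc2
      obtain ⟨i, hi⟩ := (mk_eq_mk _ _).1 h3
      -- `g t g⁻¹ x^i = z`
      apply hnt g
      have hcx : Commute (g * t * g⁻¹) ((x : G) ^ i) :=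
        (show Commute (g * t * g⁻¹) (x : G) from conj_comm hg hxt.symm).zpow_right i
      have h4 : (g * t * g⁻¹ * (x : G) ^ i) ^ p = z ^ p := by rw [hi]
      have hpow : ∀ s : G, s * s = 1 → s ^ p = s := fun s hs => by
        rw [hm, pow_succ, pow_mul, pow_two, hs, one_pow, one_mul]
      have h5 : (g * t * g⁻¹) * (g * t * g⁻¹) = 1 := by
        calc (g * t * g⁻¹) * (g * t * g⁻¹) = g * (t * t) * g⁻¹ := by group
          _ = 1 := by rw [htt]; group
      rw [hcx.mul_pow, hpow _ h5, hpow _ hzz, ← zpow_natCast ((x : G) ^ i), ← zpow_mul, mul_comm i, zpow_mul, zpow_natCast,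
        hxp, one_zpow, mul_one] at h4
      exact h4
    · exact Cfsg.Agent.BpMon.not_small h hp hp2 hx hfr hfr2 e (small_conj h2)
  · exact h1

end Cfsg.Agent.H521.BMSevenHe
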