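import Cfsg.Agent.H133.PB.LocalCor
import Cfsg.Agent.H133.PB.LieCross
import Cfsg.Agent.H684.CoverCount
import Cfsg.Agent.H724.IMTool
import Cfsg.Agent.CpAut.SmallP.PslFour
import Cfsg.Agent.Blocks.Knorr
import Cfsg.Agent.S0887

/-!
# A member of the principal 2-block of `PSL₃(4)` of degree divisible by 7 (helper521, for S4826)
-/

set_option autoImplicit false

namespace Cfsg.Agent.H521.BMSevenPsl

open Subgroup Cfsg Cfsg.Agent Cfsg.Agent.H133.PB Cfsg.Agent.H33 Cfsg.Agent.H593.IMCyc Cfsg.Agent.H713.Count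
open Cfsg.Agent.H724.IMTool
open Cfsg.Agent.ONType.Psl (SL3 PSL3)
open Cfsg.Agent.CpAut.SmallP.PslFour

universe u v

theorem BD.up {G : Type u} [Group G] [Finite G] {p q : ℕ} [hq : Fact q.Prime] (N : Subgroup G) [N.Normal]
    (h : BD p q N) : BD p q G := by
  classical
  intro M hM
  let _ : Fintype G := Fintype.ofFinite G
  let _ : Fintype N := Fintype.ofFinite N
  obtain ⟨θ, hθ, hd⟩ := h M hM
  obtain ⟨χ, hχ, hne⟩ := H684.CoverCount.exists_over hM N θ hθ
  have h1 := S0887.result N (χ : G → ℂ) χ.2 (θ : N → ℂ) θ.2 hne (charDegree (χ : G → ℂ))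
    (charDegree (θ : N → ℂ)) (Blocks.Basic.irr_one_eq_charDegree χ.2) (Blocks.Basic.irr_one_eq_charDegree θ.2)
  exact ⟨χ, hχ, hd.trans h1.1⟩

theorem DZB.of_BD {p q : ℕ} [hp : Fact p.Prime] [hq : Fact q.Prime] {K : Type v} [Group K] [Finite K] (h : BD p q K)
    (h2 : ¬ p ^ 2 ∣ Nat.card K) : DZB p q K := by
  obtain ⟨M, hM⟩ := Cfsg.Agent.Blocks.Knorr.exists_isPModular q
  obtain ⟨χ, hχ, hd⟩ := h M hM
  refine ⟨χ, fun M' hM' => mem_principalBlock_all hM hχ M' hM', ?_⟩
  have h3 : (Nat.card K).factorization p ≤ 1 := by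
    by_contra hlt
    push Not at hlt
    exact h2 ((pow_dvd_pow p hlt).trans (Nat.ordProj_dvd _ _))
  exact h3.trans (hp.out.factorization_pos_of_dvd (Cfsg.Agent.Blocks.Basic.charDegree_pos χ.2).ne' hd)

theorem order_p7 : orderOf p7 = 7 := by
  have : Fact (Nat.Prime 7) := ⟨by norm_num⟩
  exact orderOf_eq_prime p7_pow p7_ne

theorem cent_eq : centralizer ({p7} : Set PSL3) = zpowers p7 := by
  apply le_antisymm
  · intro g hg
    obtain ⟨i, rfl⟩ := cent_p7 g (mem_centralizer_singleton_iff.1 hg)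
    exact npow_mem_zpowers p7 i
  · rw [zpowers_le]
    exact mem_centralizer_singleton_iff.2 rfl

theorem fac7 : (Nat.card PSL3).factorization 7 = 1 := by
  rw [Cfsg.Agent.ONType.PslCard.card_PSL3]
  have h : (20160 : ℕ) = 7 ^ 1 * 2880 := by norm_num
  rw [h, Nat.factorization_mul (by norm_num) (by norm_num), Nat.Prime.factorization_pow (by norm_num)]
  simp [Nat.factorization_eq_zero_of_not_dvd]

/-- **an irreducible character of `PSL₃(4)` of degree divisible by 7** -/
theorem im7 : IM 7 PSL3 := by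
  have h7 : Fact (Nat.Prime 7) := ⟨by norm_num⟩
  have hfin : Finite PSL3 := finite_PSL3
  have hc : Nat.card (centralizer ({p7} : Set PSL3)) = 7 * 1 := by rw [cent_eq, Nat.card_zpowers, order_p7]
  have hfus : (fus (p := 7) p7).card = 3 := by
    refine fus_card_eq (p := 7) (e := 3) (c := 1) fac7 order_p7 hc ?_
    rw [Cfsg.Agent.ONType.PslCard.card_PSL3]
    decide
  have hcard : Nat.card (zpowers p7) = 7 ^ (Nat.card PSL3).factorization 7 := by
    rw [Nat.card_zpowers, order_p7, fac7, pow_one]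
  let P : Sylow 7 PSL3 := Sylow.ofCard (zpowers p7) hcard
  have hm : numCls 7 (zpowers p7) ≤ 1 := by
    refine (numCls_eq_one P ?_).le
    show IsPGroup 7 (centralizer ((zpowers p7 : Subgroup PSL3) : Set PSL3))
    rw [H724.IMTool.centralizer_zpowers, cent_eq]
    exact IsPGroup.of_card (n := 1) (by rw [Nat.card_zpowers, order_p7, pow_one])
  have hord : ∀ n : ℕ, n.Prime → n ∣ 20160 → ∃ g : PSL3, orderOf g = n := by
    intro n hn hd
    have : Fact n.Prime := ⟨hn⟩
    exact exists_prime_orderOf_dvd_card' n (by rw [Cfsg.Agent.ONType.PslCard.card_PSL3]; exact hd)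
  refine IM_T5_orders fac7 order_p7 hfus.le hm {1, 2, 3, 5} (fun n hn => ?_) (by decide)
  simp only [Finset.mem_insert, Finset.mem_singleton] at hn
  rcases hn with rfl | rfl | rfl | rfl
  · exact ⟨by norm_num, 1, orderOf_one⟩
  · exact ⟨by norm_num, hord 2 (by norm_num) (by norm_num)⟩
  · exact ⟨by norm_num, hord 3 (by norm_num) (by norm_num)⟩
  · exact ⟨by norm_num, hord 5 (by norm_num) (by norm_num)⟩

/-- **a member of the principal 2-block of `PSL₃(4)` of degree divisible by 7** -/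
theorem bd_psl : BD 7 2 PSL3 := by
  have h2 : Fact (Nat.Prime 2) := ⟨Nat.prime_two⟩
  have hfin : Finite PSL3 := finite_PSL3
  have hch : CharP Cfsg.Agent.SporadicA.FieldFour.F4 2 :=
    CharTwo.of_one_ne_zero_of_two_eq_zero one_ne_zero (by decide)
  have hlie : IsLieTypeChar 2 PSL3 :=
    Or.inl ⟨_, inferInstance, inferInstance, inferInstance, 3, by norm_num, by norm_num, ⟨MulEquiv.refl _⟩⟩
  obtain ⟨χ, hχ⟩ := im7
  intro M hM
  exact ⟨χ, mem_principal_of_lie Nat.prime_two (by norm_num) (by norm_num) hlie χ hχ hM, hχ⟩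

end Cfsg.Agent.H521.BMSevenPsl
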