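import Mathlib
import Cfsg.Prelude.Def_Solvable
import Cfsg.Prelude.Def_OddOrderLocal
import Cfsg.Agent.S0034
import Cfsg.Agent.S0037
import Cfsg.Agent.StrongEmb.TransferCompl

/-!
# Hall subgroups which are TI-subgroups

* `exists_fixed_point`: a finite group acting such that every non-identity element fixes exactly one
  point has a global fixed point.
* `mem_of_mem_normalizer`: if `|H|` is coprime to `|N_G(H) : H|` then every `π(H)`-element of
  `N_G(H)` lies in `H`.
* `hall_of_ti`: a TI-subgroup which is a Hall subgroup of its normalizer is a Hall subgroup.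
* `exists_conj_ge`: a TI Hall subgroup contains every `π(H)`-subgroup up to conjugacy.
-/

set_option autoImplicit false

namespace Cfsg.Agent.H521.TIHall

open MulAction

/-- If every non-identity element of the finite group `K` fixes exactly one point of the nonempty
set `Ω`, then `K` has a global fixed point. -/
theorem exists_fixed_point {K Ω : Type*} [Group K] [Finite K] [MulAction K Ω] [Nonempty Ω]
    (h1 : ∀ k : K, k ≠ 1 → ∃! ω : Ω, k • ω = ω) : ∃ ω : Ω, ∀ k : K, k • ω = ω := by
  classical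
  by_contra hno
  push Not at hno
  obtain ⟨ω₁⟩ := ‹Nonempty Ω›
  obtain ⟨x, hx⟩ := hno ω₁
  have hx1 : x ≠ 1 := by rintro rfl; exact hx (one_smul _ _)
  obtain ⟨ω₂, hω₂, -⟩ := h1 x hx1
  -- nontrivial stabilizers are Frobenius complements
  have hfc : ∀ ω : Ω, stabilizer K ω ≠ ⊥ → Cfsg.IsFrobeniusComplement (stabilizer K ω) := by
    intro ω hω
    refine ⟨hω, ?_, ?_⟩
    · intro htop
      obtain ⟨k, hk⟩ := hno ω
      exact hk (mem_stabilizer_iff.mp (htop ▸ Subgroup.mem_top k))
    · intro g hg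
      rw [eq_bot_iff]
      rintro y ⟨hy1, hy2⟩
      rw [Subgroup.mem_bot]
      by_contra hy
      have h3 : y • (g • ω) = g • ω := by
        obtain ⟨z, hz, hzy⟩ := (Subgroup.mem_smul_pointwise_iff_exists _ _ _).mp hy2
        rw [← hzy, MulAut.smul_def, MulAut.conj_apply, mul_smul, mul_smul, inv_smul_smul]
        rw [mem_stabilizer_iff.mp hz]
      exact hg (mem_stabilizer_iff.mpr ((h1 y hy).unique h3 hy1))
  -- a stabilizer of maximal order
  obtain ⟨ω, hmax⟩ : ∃ ω : Ω, ∀ ω' : Ω, Nat.card (stabilizer K ω') ≤ Nat.card (stabilizer K ω) := by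
    have hfin : Finite (Set.range (fun ω : Ω => Nat.card (stabilizer K ω))) := by
      apply Set.Finite.to_subtype
      apply Set.Finite.subset (Set.finite_Iic (Nat.card K))
      rintro _ ⟨ω, rfl⟩
      exact Subgroup.card_le_card_group _
    have hne : Nonempty (Set.range (fun ω : Ω => Nat.card (stabilizer K ω))) :=
      ⟨⟨_, ω₁, rfl⟩⟩
    obtain ⟨⟨_, ω, rfl⟩, hω⟩ := Finite.exists_max
      (fun n : Set.range (fun ω : Ω => Nat.card (stabilizer K ω)) => (n : ℕ))
    exact ⟨ω, fun ω' => hω ⟨_, ω', rfl⟩⟩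
  have hne2 : ∀ (y : K) (ω' : Ω), y ≠ 1 → y • ω' = ω' → stabilizer K ω' ≠ ⊥ := by
    intro y ω' hy hyω h
    have : y ∈ stabilizer K ω' := hyω
    rw [h, Subgroup.mem_bot] at this
    exact hy this
  have hω : stabilizer K ω ≠ ⊥ := by
    intro h
    have h2 := hmax ω₂
    rw [h, Subgroup.card_bot] at h2
    exact hne2 x ω₂ hx1 hω₂ (Subgroup.eq_bot_of_card_le _ h2)
  have hker : Cfsg.frobeniusKernel (stabilizer K ω) = {1} := by
    ext y
    constructor
    · rintro (hy | hy)
      · exact hy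
      · by_contra hy1
        have hy1' : y ≠ 1 := hy1
        obtain ⟨ω', hω', -⟩ := h1 y hy1'
        obtain ⟨g, hg⟩ := Cfsg.Agent.S0037.result _ _ (hfc ω hω)
          (hfc ω' (hne2 y ω' hy1' hω')) (hmax ω')
        apply hy g⁻¹
        have h5 : MulAut.conj g • y ∈ stabilizer K ω :=
          hg (Subgroup.smul_mem_pointwise_smul _ _ _ hω')
        rw [Subgroup.mem_pointwise_smul_iff_inv_smul_mem, ← map_inv, inv_inv]
        exact h5
    · intro hy
      exact Or.inl hy
  have hidx := (Cfsg.Agent.S0034.result _ (hfc ω hω)).1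
  rw [hker] at hidx
  simp at hidx
  exact (hfc ω hω).2.1 (Subgroup.index_eq_one.mp hidx.symm)

/-- `N_G(H)` for a subgroup `H`. -/
theorem index_eq_relIndex {G : Type*} [Group G] (H : Subgroup G) :
    (H.subgroupOf (Subgroup.normalizer (H : Set G))).index =
      H.relIndex (Subgroup.normalizer (H : Set G)) := rfl

/-- If `|H|` is coprime to `|N_G(H) : H|`, an element of `N_G(H)` whose order is divisible only by
primes dividing `|H|` lies in `H`. -/
theorem mem_of_mem_normalizer {G : Type*} [Group G] [Finite G] {H : Subgroup G}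
    (hHall : (Nat.card H).Coprime (H.subgroupOf (Subgroup.normalizer (H : Set G))).index) {x : G}
    (hx : x ∈ Subgroup.normalizer (H : Set G))
    (hpi : ∀ q : ℕ, q.Prime → q ∣ orderOf x → q ∣ Nat.card H) : x ∈ H := by
  classical
  set N := Subgroup.normalizer (H : Set G) with hN
  have hnorm : (H.subgroupOf N).Normal := Subgroup.normal_in_normalizer
  let y : N ⧸ H.subgroupOf N := QuotientGroup.mk' _ ⟨x, hx⟩
  have h1 : orderOf y ∣ orderOf x := by
    have := orderOf_map_dvd (QuotientGroup.mk' (H.subgroupOf N)) (⟨x, hx⟩ : N)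
    rwa [Subgroup.orderOf_mk] at this
  have h2 : orderOf y ∣ (H.subgroupOf N).index := orderOf_dvd_natCard y
  have h3 : orderOf y = 1 := by
    by_contra hne
    obtain ⟨q, hq, hqd⟩ := Nat.exists_prime_and_dvd hne
    have h4 := hpi q hq (hqd.trans h1)
    have h5 := hqd.trans h2
    exact hq.one_lt.ne' (Nat.dvd_one.mp (hHall ▸ Nat.dvd_gcd h4 h5))
  rw [orderOf_eq_one_iff] at h3
  have h6 := (QuotientGroup.eq_one_iff _).mp h3
  exact h6

/-- A TI-subgroup which is a Hall subgroup of its normalizer is a Hall subgroup. -/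
theorem hall_of_ti {G : Type*} [Group G] [Finite G] {H : Subgroup G}
    (hTI : Cfsg.IsTISubset (H : Set G))
    (hHall : (Nat.card H).Coprime (H.subgroupOf (Subgroup.normalizer (H : Set G))).index) :
    (Nat.card H).Coprime H.index := by
  classical
  rw [Nat.coprime_iff_gcd_eq_one]
  by_contra hne
  obtain ⟨p, hp, hpd⟩ := Nat.exists_prime_and_dvd hne
  have : Fact p.Prime := ⟨hp⟩
  have hpH : p ∣ Nat.card H := hpd.trans (Nat.gcd_dvd_left _ _)
  have hpI : p ∣ H.index := hpd.trans (Nat.gcd_dvd_right _ _)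
  obtain ⟨P⟩ : Nonempty (Sylow p H) := inferInstance
  set P' : Subgroup G := (P : Subgroup H).map H.subtype with hP'
  have hP'card : Nat.card P' = p ^ (Nat.card H).factorization p := by
    rw [hP', Nat.card_congr ((P : Subgroup H).equivMapOfInjective _ H.subtype_injective).symm.toEquiv,
      Sylow.card_eq_multiplicity]
  have hdvd : p ^ ((Nat.card H).factorization p + 1) ∣ Nat.card G := by
    rw [← H.card_mul_index, pow_succ]
    exact mul_dvd_mul (Nat.ordProj_dvd _ _) hpI
  obtain ⟨K, hKcard, hP'K⟩ := Sylow.exists_subgroup_card_pow_succ hdvd hP'card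
  have hKp : IsPGroup p K := IsPGroup.of_card hKcard
  have hne1 : (Nat.card H).factorization p ≠ 0 :=
    (hp.factorization_pos_of_dvd Nat.card_pos.ne' hpH).ne'
  have hP'ne : P' ≠ ⊥ := by
    intro h
    rw [h, Subgroup.card_bot] at hP'card
    exact hne1 (Nat.pow_right_injective hp.two_le (by simpa using hP'card.symm))
  have hP'H : P' ≤ H := Subgroup.map_subtype_le _
  have hidx : (P'.subgroupOf K).index = p := by
    have h1 := (P'.subgroupOf K).card_mul_index
    rw [Nat.card_congr (Subgroup.subgroupOfEquivOfLe hP'K).toEquiv, hP'card, hKcard, pow_succ] at h1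
    exact Nat.eq_of_mul_eq_mul_left (pow_pos hp.pos _) h1
  have hnorm : (P'.subgroupOf K).Normal := by
    apply Subgroup.normal_of_index_eq_minFac_card
    rw [hidx, hKcard, Nat.pow_minFac (Nat.succ_ne_zero _), hp.minFac_eq]
  obtain ⟨z, hz, hz1⟩ : ∃ z : G, z ∈ P' ∧ z ≠ 1 := by
    obtain ⟨z, hz⟩ := Subgroup.ne_bot_iff_exists_ne_one.mp hP'ne
    exact ⟨z, z.2, fun h => hz (Subtype.ext h)⟩
  have hKN : K ≤ Subgroup.normalizer (H : Set G) := by
    intro k hk
    by_contra hkn
    have h1 := hnorm.conj_mem ⟨z, hP'K hz⟩ (by simpa [Subgroup.mem_subgroupOf] using hz) ⟨k, hk⟩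
    have h2 : k * z * k⁻¹ ∈ P' := by simpa [Subgroup.mem_subgroupOf] using h1
    exact hz1 (hTI k hkn z (hP'H hz) (hP'H h2))
  have hKH : K ≤ H := by
    intro k hk
    refine mem_of_mem_normalizer hHall (hKN hk) (fun q hq hqk => ?_)
    have h1 : orderOf k ∣ Nat.card K := Subgroup.orderOf_dvd_natCard K hk
    rw [hKcard] at h1
    have h2 := (Nat.prime_dvd_prime_iff_eq hq hp).mp (hq.dvd_of_dvd_pow (hqk.trans h1))
    rwa [h2]
  have h3 : p ^ ((Nat.card H).factorization p + 1) ∣ Nat.card H := by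
    rw [← hKcard]
    exact Subgroup.card_dvd_of_le hKH
  exact Nat.pow_succ_factorization_not_dvd Nat.card_pos.ne' hp h3

/-- In a Hall subgroup the index in the normalizer is coprime to the order. -/
theorem coprime_normalizer_of_hall {G : Type*} [Group G] [Finite G] {H : Subgroup G}
    (hHall : (Nat.card H).Coprime H.index) :
    (Nat.card H).Coprime (H.subgroupOf (Subgroup.normalizer (H : Set G))).index := by
  apply Nat.Coprime.coprime_dvd_right _ hHall
  exact Subgroup.relIndex_dvd_index_of_le Subgroup.le_normalizer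

/-- A TI Hall subgroup contains every `π(H)`-subgroup up to conjugacy. -/
theorem exists_conj_ge {G : Type*} [Group G] [Finite G] {H : Subgroup G}
    (hHall : (Nat.card H).Coprime H.index) (hTI : Cfsg.IsTISubset (H : Set G))
    (K : Subgroup G) (hK : ∀ q : ℕ, q.Prime → q ∣ Nat.card K → q ∣ Nat.card H) :
    ∃ g : G, K ≤ H.map (MulAut.conj g).toMonoidHom := by
  classical
  have hHall' := coprime_normalizer_of_hall hHall
  set N := Subgroup.normalizer (H : Set G) with hN
  -- a point `gN` fixed by `k ∈ K` means `k ∈ gHg⁻¹`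
  have hfix : ∀ (k : K) (g : G), k • (g : G ⧸ N) = (g : G ⧸ N) ↔ g⁻¹ * k * g ∈ H := by
    intro k g
    have h1 : k • (g : G ⧸ N) = (((k : G) * g : G) : G ⧸ N) := rfl
    rw [h1, eq_comm, QuotientGroup.eq, ← mul_assoc]
    constructor
    · intro h
      refine mem_of_mem_normalizer hHall' h (fun q hq hqd => hK q hq (hqd.trans ?_))
      have h2 : orderOf (g⁻¹ * (k : G) * g) = orderOf (k : G) := by
        have := orderOf_injective (MulAut.conj g⁻¹).toMonoidHom (MulAut.conj g⁻¹).injective (k : G)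
        simpa [MulAut.conj_apply] using this
      rw [h2]
      exact Subgroup.orderOf_dvd_natCard K k.2
    · intro h
      exact Subgroup.le_normalizer h
  obtain ⟨ω, hω⟩ := exists_fixed_point (K := K) (Ω := G ⧸ N) (by
    intro k hk
    -- existence
    have hord : orderOf k ≠ 1 := by rwa [Ne, orderOf_eq_one_iff]
    obtain ⟨p, hp, hpd⟩ := Nat.exists_prime_and_dvd hord
    have : Fact p.Prime := ⟨hp⟩
    have hpH : p ∣ Nat.card H := hK p hp (hpd.trans (orderOf_dvd_natCard k))
    set y : K := k ^ (orderOf k / p) with hy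
    have hyo : orderOf y = p := orderOf_pow_orderOf_div (orderOf_pos k).ne' hpd
    have hyo' : orderOf (y : G) = p := by rw [Subgroup.orderOf_coe, hyo]
    have hyp : IsPGroup p (Subgroup.zpowers (y : G)) :=
      IsPGroup.of_card (n := 1) (by rw [Nat.card_zpowers, hyo', pow_one])
    obtain ⟨c, hc⟩ := Cfsg.Agent.StrongEmb.TransferCompl.pGroup_conj_of_hall hHall hp hpH hyp
    have hcy := hc y (Subgroup.mem_zpowers _)
    have hy1 : (y : G) ≠ 1 := by
      intro h
      rw [h, orderOf_one] at hyo'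
      exact hp.one_lt.ne hyo'
    refine ⟨((c⁻¹ : G) : G ⧸ N), ?_, ?_⟩
    · -- `k` normalizes `c⁻¹Hc`
      show k • ((c⁻¹ : G) : G ⧸ N) = ((c⁻¹ : G) : G ⧸ N)
      have h1 : k • ((c⁻¹ : G) : G ⧸ N) = (((k : G) * c⁻¹ : G) : G ⧸ N) := rfl
      rw [h1, eq_comm, QuotientGroup.eq, inv_inv]
      by_contra hkn
      have hconj : (c * ((k : G) * c⁻¹)) * (c * y * c⁻¹) * (c * ((k : G) * c⁻¹))⁻¹ = c * y * c⁻¹ := by
        have hcomm : (k : G) * y * (k : G)⁻¹ = y := by
          have : k * y * k⁻¹ = y := by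
            rw [hy, ← pow_succ', pow_succ, mul_inv_cancel_right]
          exact_mod_cast congrArg (Subtype.val) this
        calc (c * ((k : G) * c⁻¹)) * (c * y * c⁻¹) * (c * ((k : G) * c⁻¹))⁻¹
            = c * ((k : G) * y * (k : G)⁻¹) * c⁻¹ := by group
          _ = _ := by rw [hcomm]
      have h2 := hTI _ hkn (c * y * c⁻¹) hcy (by rw [hconj]; exact hcy)
      apply hy1
      have h3 : (y : G) = c⁻¹ * (c * y * c⁻¹) * c := by group
      rw [h3, h2]; group
    · intro ω hω
      obtain ⟨g, rfl⟩ := QuotientGroup.mk_surjective ω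
      have h1 := (hfix k g).mp hω
      have h2 : g⁻¹ * y * g ∈ H := by
        have h3 : g⁻¹ * (y : G) * g = (g⁻¹ * k * g) ^ (orderOf k / p) := by
          rw [hy]
          have := conj_pow (i := orderOf k / p) (a := g⁻¹) (b := (k : G))
          rw [inv_inv] at this
          rw [this]
          rfl
        rw [h3]
        exact pow_mem h1 _
      rw [QuotientGroup.eq]
      by_contra hkn
      have hkn' : (g⁻¹ * c⁻¹)⁻¹ ∉ N := fun h => hkn (by simpa using inv_mem h)
      have hconj : (g⁻¹ * c⁻¹)⁻¹ * (g⁻¹ * y * g) * ((g⁻¹ * c⁻¹)⁻¹)⁻¹ = c * y * c⁻¹ := by group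
      have h4 := hTI _ hkn' (g⁻¹ * y * g) h2 (by rw [hconj]; exact hcy)
      apply hy1
      have h3 : (y : G) = g * (g⁻¹ * y * g) * g⁻¹ := by group
      rw [h3, h4]; group)
  obtain ⟨g, rfl⟩ := QuotientGroup.mk_surjective ω
  refine ⟨g, fun k hk => ⟨g⁻¹ * k * g, (hfix ⟨k, hk⟩ g).mp (hω ⟨k, hk⟩), ?_⟩⟩
  simp [MulAut.conj_apply]
  group

end Cfsg.Agent.H521.TIHall
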