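import Mathlib
import Cfsg.Prelude.Def_Solvable
import Cfsg.Prelude.Def_OddOrderLocal
import Cfsg.Agent.S0039
import Cfsg.Agent.Lib.PGroupCoprimeAction
import Cfsg.Agent.Lib.FrattiniBasic
import Cfsg.Agent.H521.TIHall

/-!
# Frobenius complements from coprime actions

* `exists_frobenius_of_fpf`: a group acting without fixed points (elementwise) on a nontrivial group is
  (abstractly) a Frobenius complement.
* `exists_section`: if `H` acts nontrivially and coprimely on a `q`-group `Q` and
  `C_Q(h) = C_Q(H)` for all `h ≠ 1`, then `H` acts elementwise fixed-point-freely on some nontrivial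
  quotient of `Q`.
* `frobenius_of_normal_complement`: a non-normal TI-subgroup with a normal complement of coprime order is
  a Frobenius complement.
-/

set_option autoImplicit false

namespace Cfsg.Agent.H521.FpfSection

universe u

open MulAction

/-- A nontrivial group acting without fixed points on a nontrivial group is a Frobenius complement. -/
theorem exists_frobenius_of_fpf {H V : Type u} [Group H] [Finite H] [Group V] [Finite V] [Nontrivial H]
    [Nontrivial V] (ψ : H →* MulAut V) (hfpf : ∀ h : H, h ≠ 1 → ∀ v : V, ψ h v = v → v = 1) :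
    ∃ (F : Type u) (_ : Group F) (_ : Finite F) (C : Subgroup F),
      Cfsg.IsFrobeniusComplement C ∧ Nonempty (H ≃* C) := by
  have hfin : Finite (V ⋊[ψ] H) := Finite.of_equiv _ SemidirectProduct.equivProd.symm
  refine ⟨V ⋊[ψ] H, inferInstance, hfin, (SemidirectProduct.inr : H →* V ⋊[ψ] H).range, ?_,
    ⟨MonoidHom.ofInjective SemidirectProduct.inr_injective⟩⟩
  have hKn : ((SemidirectProduct.inl : V →* V ⋊[ψ] H).range).Normal := by
    rw [SemidirectProduct.range_inl_eq_ker_rightHom]
    infer_instance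
  have hc : Subgroup.IsComplement' (SemidirectProduct.inl : V →* V ⋊[ψ] H).range
      (SemidirectProduct.inr : H →* V ⋊[ψ] H).range := by
    apply Subgroup.isComplement'_of_disjoint_and_mul_eq_univ
    · rw [Subgroup.disjoint_def]
      rintro _ ⟨v, rfl⟩ ⟨h, hh⟩
      have h1 := congrArg SemidirectProduct.left hh
      simp at h1
      rw [← h1, map_one]
    · rw [Set.eq_univ_iff_forall]
      intro x
      exact ⟨_, ⟨x.left, rfl⟩, _, ⟨x.right, rfl⟩, SemidirectProduct.inl_left_mul_inr_right x⟩
  rw [Cfsg.Agent.S0039.result _ _ hc]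
  · rintro _ ⟨h, rfl⟩ hh
    have hh1 : h ≠ 1 := by
      rintro rfl
      exact hh (map_one _)
    rw [eq_bot_iff]
    rintro _ ⟨⟨v, rfl⟩, hv⟩
    rw [Subgroup.mem_bot]
    have h1 : ψ h v = v := by
      have h2 := Subgroup.mem_centralizer_singleton_iff.mp hv
      have h3 : (SemidirectProduct.inl (ψ h v) : V ⋊[ψ] H) = SemidirectProduct.inl v := by
        rw [SemidirectProduct.inl_aut, map_inv, mul_inv_eq_iff_eq_mul]
        first
          | exact h2
          | exact h2.symm
      exact SemidirectProduct.inl_injective h3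
    rw [hfpf h hh1 v h1, map_one]
  · intro h
    obtain ⟨v, hv⟩ := exists_ne (1 : V)
    have h1 : (SemidirectProduct.inl v : V ⋊[ψ] H) ∈ (SemidirectProduct.inl : V →* V ⋊[ψ] H).range :=
      ⟨v, rfl⟩
    rw [h, Subgroup.mem_bot] at h1
    exact hv (SemidirectProduct.inl_injective (by rw [h1, map_one]))
  · intro h
    obtain ⟨v, hv⟩ := exists_ne (1 : H)
    have h1 : (SemidirectProduct.inr v : V ⋊[ψ] H) ∈ (SemidirectProduct.inr : H →* V ⋊[ψ] H).range :=
      ⟨v, rfl⟩
    rw [h, Subgroup.mem_bot] at h1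
    exact hv (SemidirectProduct.inr_injective (by rw [h1, map_one]))

/-- The subgroup of elements fixed by all automorphisms `φ h`. -/
def fix {H Q : Type*} [Group H] [Group Q] (φ : H →* MulAut Q) : Subgroup Q where
  carrier := {x | ∀ h, φ h x = x}
  mul_mem' := by
    intro x y hx hy h
    rw [map_mul, hx h, hy h]
  one_mem' := fun h => map_one _
  inv_mem' := by
    intro x hx h
    rw [map_inv, hx h]

/-- Coprime lifting of fixed points: if `h ≠ 1` stabilises the left coset `xD` (`D` an `H`-invariant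
subgroup) and every fixed point of a nontrivial element of `H` is a fixed point of `H`, then `xD`
contains a fixed point of `H`. -/
theorem exists_fix_mem_coset {H Q : Type*} [Group H] [Finite H] [Group Q] [Finite Q]
    (φ : H →* MulAut Q) (hcop : (Nat.card H).Coprime (Nat.card Q))
    (hfix : ∀ h : H, h ≠ 1 → ∀ x : Q, φ h x = x → ∀ h' : H, φ h' x = x)
    (D : Subgroup Q) (hD : ∀ h : H, ∀ d ∈ D, φ h d ∈ D) (h : H) (hh : h ≠ 1) (x : Q)
    (hx : x⁻¹ * φ h x ∈ D) : ∃ c ∈ fix φ, x⁻¹ * c ∈ D := by
  classical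
  have hord : orderOf h ≠ 1 := by rwa [Ne, orderOf_eq_one_iff]
  obtain ⟨p, hp, hpd⟩ := Nat.exists_prime_and_dvd hord
  have : Fact p.Prime := ⟨hp⟩
  set a : H := h ^ (orderOf h / p) with ha
  have hao : orderOf a = p := orderOf_pow_orderOf_div (orderOf_pos h).ne' hpd
  have hA : IsPGroup p (Subgroup.zpowers a) :=
    IsPGroup.of_card (n := 1) (by rw [Nat.card_zpowers, hao, pow_one])
  have ha1 : a ≠ 1 := by
    intro h1
    rw [h1, orderOf_one] at hao
    exact hp.one_lt.ne hao
  have hpQ : ¬ p ∣ Nat.card Q := by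
    intro h1
    have h2 : p ∣ Nat.card H := hpd.trans (orderOf_dvd_natCard h)
    exact hp.one_lt.ne' (Nat.dvd_one.mp (hcop ▸ Nat.dvd_gcd h2 h1))
  let _ : MulDistribMulAction (Subgroup.zpowers a) Q :=
    { smul := fun b x => φ b x
      one_smul := fun x => by
        change φ ((1 : Subgroup.zpowers a) : H) x = x
        rw [Subgroup.coe_one, map_one]; rfl
      mul_smul := fun b c x => by
        change φ ((b * c : Subgroup.zpowers a) : H) x = φ b (φ c x)
        rw [Subgroup.coe_mul, map_mul]; rfl
      smul_mul := fun b x y => map_mul _ _ _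
      smul_one := fun b => map_one _ }
  -- stability under powers of `h`
  have hstab : ∀ n : ℕ, ∀ y : Q, x⁻¹ * y ∈ D → x⁻¹ * φ (h ^ n) y ∈ D := by
    intro n
    induction n with
    | zero => intro y hy; simpa using hy
    | succ n ih =>
      intro y hy
      have h1 : x⁻¹ * φ h y ∈ D := by
        have h2 : x⁻¹ * φ h y = (x⁻¹ * φ h x) * φ h (x⁻¹ * y) := by
          rw [map_mul, map_inv]; group
        rw [h2]
        exact D.mul_mem hx (hD h _ hy)
      have h3 : φ (h ^ (n + 1)) y = φ (h ^ n) (φ h y) := by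
        rw [pow_succ, map_mul]; rfl
      rw [h3]
      exact ih _ h1
  obtain ⟨c, hc, hcf⟩ := Cfsg.Agent.Lib.PGroupCoprimeAction.exists_fixed_mem_coset hA hpQ D x (by
    rintro ⟨b, hb⟩ y hy
    change x⁻¹ * φ b y ∈ D
    obtain ⟨k, hk⟩ := (mem_powers_iff_mem_zpowers.mpr hb)
    rw [← hk]
    change x⁻¹ * φ (a ^ k) y ∈ D
    rw [ha, ← pow_mul]
    exact hstab _ y hy)
  refine ⟨c, fun h' => hfix a ha1 c ?_ h', hc⟩
  exact hcf ⟨a, Subgroup.mem_zpowers a⟩

/-- `H` acts coprimely and nontrivially on the `q`-group `Q`, `C_Q(h) = C_Q(H)` for all `h ≠ 1`: then `H`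
acts elementwise fixed-point-freely on some nontrivial quotient of `Q`. -/
theorem exists_section {H Q : Type u} [Group H] [Finite H] [Group Q] [Finite Q] {q : ℕ}
    [Fact q.Prime] (hQ : IsPGroup q Q) (φ : H →* MulAut Q) (hcop : (Nat.card H).Coprime (Nat.card Q))
    (hnt : ∃ h x, φ h x ≠ x)
    (hfix : ∀ h : H, h ≠ 1 → ∀ x : Q, φ h x = x → ∀ h' : H, φ h' x = x) :
    ∃ (V : Type u) (_ : Group V) (_ : Finite V) (ψ : H →* MulAut V), Nontrivial V ∧
      ∀ h : H, h ≠ 1 → ∀ v : V, ψ h v = v → v = 1 := by
  classical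
  set D : Subgroup Q := fix φ ⊔ commutator Q with hDdef
  have hDn : D.Normal := by
    apply Subgroup.Normal.of_commutator_le
    exact le_sup_right
  have hDinv : ∀ h : H, ∀ d ∈ D, φ h d ∈ D := by
    intro h
    have h1 : D ≤ D.comap (φ h).toMonoidHom := by
      rw [hDdef]
      apply sup_le
      · intro d hd
        have h2 : φ h d = d := hd h
        change φ h d ∈ fix φ ⊔ commutator Q
        rw [h2]
        exact Subgroup.mem_sup_left hd
      · intro d hd
        change φ h d ∈ fix φ ⊔ commutator Q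
        apply Subgroup.mem_sup_right
        have h3 := (inferInstance : (commutator Q).Characteristic).fixed (φ h)
        rw [← h3] at hd
        exact hd
    exact fun d hd => h1 hd
  have hDmap : ∀ h : H, D.map (φ h : Q →* Q) = D := by
    intro h
    apply le_antisymm
    · rintro _ ⟨d, hd, rfl⟩
      exact hDinv h d hd
    · intro d hd
      refine ⟨φ h⁻¹ d, hDinv _ d hd, ?_⟩
      change φ h (φ h⁻¹ d) = d
      rw [← MulAut.mul_apply, ← map_mul, mul_inv_cancel, map_one]; rfl
  have hDtop : D ≠ ⊤ := by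
    intro htop
    have h1 : fix φ ⊔ frattini Q = ⊤ := by
      rw [eq_top_iff, ← htop]
      exact sup_le_sup_left (Cfsg.Agent.Lib.FrattiniBasic.commutator_le_frattini hQ) _
    have h2 := frattini_nongenerating h1
    obtain ⟨h, x, hx⟩ := hnt
    have h3 : x ∈ fix φ := h2 ▸ Subgroup.mem_top x
    exact hx (h3 h)
  let ψ : H →* MulAut (Q ⧸ D) :=
    { toFun := fun h => QuotientGroup.congr D D (φ h) (hDmap h)
      map_one' := by
        ext x
        obtain ⟨x, rfl⟩ := QuotientGroup.mk_surjective x
        rw [QuotientGroup.congr_mk]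
        simp
      map_mul' := by
        intro a b
        ext x
        obtain ⟨x, rfl⟩ := QuotientGroup.mk_surjective x
        rw [MulAut.mul_apply, QuotientGroup.congr_mk, QuotientGroup.congr_mk, QuotientGroup.congr_mk,
          map_mul]
        rfl }
  refine ⟨Q ⧸ D, inferInstance, inferInstance, ψ, ?_, ?_⟩
  · by_contra hnt'
    rw [not_nontrivial_iff_subsingleton] at hnt'
    exact hDtop (QuotientGroup.subsingleton_iff.mp hnt')
  · intro h hh v hv
    obtain ⟨x, rfl⟩ := QuotientGroup.mk_surjective v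
    have h1 : ((φ h x : Q) : Q ⧸ D) = (x : Q ⧸ D) := hv
    have h2 : x⁻¹ * φ h x ∈ D := QuotientGroup.eq.mp h1.symm
    obtain ⟨c, hc, hcD⟩ := exists_fix_mem_coset φ hcop hfix D hDinv h hh x h2
    rw [QuotientGroup.eq_one_iff]
    have h3 : x = c * (x⁻¹ * c)⁻¹ := by group
    rw [h3]
    exact D.mul_mem (Subgroup.mem_sup_left hc) (D.inv_mem hcD)

/-- Frattini argument: a TI Hall subgroup `H` with a normal complement `M` normalizes a Sylow `q`-subgroup
of `M`. -/
theorem exists_invariant_sylow {G : Type*} [Group G] [Finite G] {H M : Subgroup G} [M.Normal]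
    (hc : M.IsComplement' H) (hHall : (Nat.card H).Coprime H.index)
    (hTI : Cfsg.IsTISubset (H : Set G)) (q : ℕ) [Fact q.Prime] :
    ∃ Q : Subgroup G, Q ≤ M ∧ IsPGroup q Q ∧ Nat.card Q = q ^ (Nat.card M).factorization q ∧
      H ≤ Subgroup.normalizer (Q : Set G) := by
  classical
  obtain ⟨P⟩ : Nonempty (Sylow q M) := inferInstance
  set Q : Subgroup G := (P : Subgroup M).map M.subtype with hQ
  have hQM : Q ≤ M := Subgroup.map_subtype_le _
  have hQcard : Nat.card Q = q ^ (Nat.card M).factorization q := by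
    rw [hQ, Nat.card_congr ((P : Subgroup M).equivMapOfInjective _ M.subtype_injective).symm.toEquiv,
      Sylow.card_eq_multiplicity]
  have hQq : IsPGroup q Q := IsPGroup.of_card hQcard
  have hfrat : Subgroup.normalizer (Q : Set G) ⊔ M = ⊤ := Sylow.normalizer_sup_eq_top P
  set X := Subgroup.normalizer (Q : Set G) with hX
  -- Schur-Zassenhaus in `X`
  have hMcard : Nat.card H = M.index := hc.symm.index_eq_card.symm
  have hHidx : H.index = Nat.card M := hc.index_eq_card
  have hidx : (M.subgroupOf X).index = Nat.card H := by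
    change M.relIndex X = _
    rw [← Subgroup.relIndex_sup_right, sup_comm]
    first
      | rw [hfrat, Subgroup.relIndex_top_right, hMcard]
      | rw [sup_comm, hfrat, Subgroup.relIndex_top_right, hMcard]
  have hcardM : Nat.card (M.subgroupOf X) ∣ Nat.card M := by
    rw [← Subgroup.card_map_of_injective X.subtype_injective, Subgroup.subgroupOf_map_subtype]
    exact Subgroup.card_dvd_of_le inf_le_left
  have hcop : (Nat.card (M.subgroupOf X)).Coprime (M.subgroupOf X).index := by
    rw [hidx]
    apply Nat.Coprime.coprime_dvd_left hcardM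
    rw [← hHidx]
    exact hHall.symm
  obtain ⟨K, hK⟩ := Subgroup.exists_right_complement'_of_coprime hcop
  have hKcard : Nat.card (K.map X.subtype) = Nat.card H := by
    rw [Subgroup.card_map_of_injective X.subtype_injective, ← hidx, hK.symm.index_eq_card]
  obtain ⟨g, hg⟩ := Cfsg.Agent.H521.TIHall.exists_conj_ge hHall hTI (K.map X.subtype) (by
    intro r _ hr
    rwa [hKcard] at hr)
  have hgeq : K.map X.subtype = H.map (MulAut.conj g).toMonoidHom := by
    apply Subgroup.eq_of_le_of_card_ge hg
    rw [hKcard]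
    exact (Subgroup.card_map_of_injective (MulAut.conj g).injective).le
  have hHX : ∀ h ∈ H, g * h * g⁻¹ ∈ X := by
    intro h hh
    have h1 : g * h * g⁻¹ ∈ K.map X.subtype := by
      rw [hgeq]
      exact ⟨h, hh, rfl⟩
    exact Subgroup.map_subtype_le _ h1
  refine ⟨Q.map (MulAut.conj g⁻¹).toMonoidHom, ?_, ?_, ?_, ?_⟩
  · rintro _ ⟨x, hx, rfl⟩
    exact (inferInstance : M.Normal).conj_mem x (hQM hx) g⁻¹
  · exact hQq.map _
  · rw [← hQcard]
    exact Subgroup.card_map_of_injective (MulAut.conj g⁻¹).injective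
  · intro h hh
    have h1 := hHX h hh
    rw [Subgroup.mem_normalizer_iff] at h1 ⊢
    intro x
    have h2 : ∀ y : G, y ∈ Q.map (MulAut.conj g⁻¹).toMonoidHom ↔ g * y * g⁻¹ ∈ Q := by
      intro y
      constructor
      · rintro ⟨z, hz, rfl⟩
        have : g * (MulAut.conj g⁻¹).toMonoidHom z * g⁻¹ = z := by
          simp; group
        rwa [this]
      · intro hy
        exact ⟨_, hy, by simp; group⟩
    rw [h2, h2]
    have h3 := h1 (g * x * g⁻¹)
    have h4 : g * h * g⁻¹ * (g * x * g⁻¹) * (g * h * g⁻¹)⁻¹ = g * (h * x * h⁻¹) * g⁻¹ := by group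
    rw [h4] at h3
    exact h3

/-- A non-normal TI-subgroup with a normal complement of coprime order is (abstractly) a Frobenius
complement. -/
theorem frobenius_of_normal_complement {G : Type u} [Group G] [Finite G] {H M : Subgroup G} [M.Normal]
    (hc : M.IsComplement' H) (hHall : (Nat.card H).Coprime H.index)
    (hTI : Cfsg.IsTISubset (H : Set G)) (hnn : ¬ H.Normal) :
    ∃ (F : Type u) (_ : Group F) (_ : Finite F) (C : Subgroup F),
      Cfsg.IsFrobeniusComplement C ∧ Nonempty (H ≃* C) := by
  classical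
  have hHne : Nontrivial H := by
    rw [← not_subsingleton_iff_nontrivial]
    intro h
    have := Subgroup.eq_bot_of_subsingleton H
    subst this
    exact hnn inferInstance
  have hHidx : H.index = Nat.card M := hc.index_eq_card
  have hcopM : (Nat.card H).Coprime (Nat.card M) := hHidx ▸ hHall
  have hdisj : ∀ x : G, x ∈ M → x ∈ H → x = 1 := fun x h1 h2 =>
    Subgroup.disjoint_def.mp hc.disjoint h1 h2
  -- some invariant Sylow subgroup is not centralized by `H`
  obtain ⟨q, hq, Q, hQM, hQq, hHQ, hQc⟩ : ∃ q : ℕ, q.Prime ∧ ∃ Q : Subgroup G, Q ≤ M ∧ IsPGroup q Q ∧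
      H ≤ Subgroup.normalizer (Q : Set G) ∧ ¬ Q ≤ Subgroup.centralizer (H : Set G) := by
    by_contra hno
    push Not at hno
    have hMc : M ≤ Subgroup.centralizer (H : Set G) := by
      have h1 : Nat.card M ∣ Nat.card (M ⊓ Subgroup.centralizer (H : Set G) : Subgroup G) := by
        rw [Nat.dvd_iff_prime_pow_dvd_dvd]
        intro q k hq hqk
        have : Fact q.Prime := ⟨hq⟩
        obtain ⟨Q, hQM, hQq, hQcard, hHQ⟩ := exists_invariant_sylow hc hHall hTI q
        have h2 := hno q hq Q hQM hQq hHQ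
        have h3 : q ^ k ∣ Nat.card Q := by
          rw [hQcard]
          apply Nat.pow_dvd_pow
          exact (hq.pow_dvd_iff_le_factorization Nat.card_pos.ne').mp hqk
        exact h3.trans (Subgroup.card_dvd_of_le (le_inf hQM h2))
      have h4 : M ⊓ Subgroup.centralizer (H : Set G) = M := by
        apply Subgroup.eq_of_le_of_card_ge inf_le_left
        exact Nat.le_of_dvd Nat.card_pos h1
      exact inf_eq_left.mp h4
    apply hnn
    rw [← Subgroup.normalizer_eq_top_iff, eq_top_iff, ← hc.sup_eq_top]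
    apply sup_le
    · exact hMc.trans (Subgroup.centralizer_le_normalizer _)
    · exact Subgroup.le_normalizer
  have : Fact q.Prime := ⟨hq⟩
  let φ : H →* MulAut Q := (Subgroup.normalizerMonoidHom Q).comp (Subgroup.inclusion hHQ)
  have hφ : ∀ (h : H) (x : Q), ((φ h x : Q) : G) = h * x * (h : G)⁻¹ := fun h x => rfl
  have hcopQ : (Nat.card H).Coprime (Nat.card Q) :=
    Nat.Coprime.coprime_dvd_right (Subgroup.card_dvd_of_le hQM) hcopM
  obtain ⟨V, _, _, ψ, hV, hfpf⟩ := exists_section hQq φ hcopQ (by
    by_contra hno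
    push Not at hno
    apply hQc
    intro x hx
    rw [Subgroup.mem_centralizer_iff]
    intro h hh
    have h1 := congrArg Subtype.val (hno ⟨h, hh⟩ ⟨x, hx⟩)
    rw [hφ] at h1
    exact mul_inv_eq_iff_eq_mul.mp h1) (by
    intro h hh x hx h'
    have h1 := congrArg Subtype.val hx
    rw [hφ] at h1
    have h2 : (x : G) * h * (x : G)⁻¹ = h := by
      have := mul_inv_eq_iff_eq_mul.mp h1
      rw [mul_inv_eq_iff_eq_mul, this]
    have h3 : (x : G) ∈ Subgroup.normalizer (H : Set G) := by
      by_contra hxn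
      exact hh (Subtype.ext (hTI x hxn h h.2 (by rw [h2]; exact h.2)))
    apply Subtype.ext
    rw [hφ]
    have h4 : (h' : G) * x * (h' : G)⁻¹ * (x : G)⁻¹ = 1 := by
      apply hdisj
      · apply M.mul_mem
        · exact (inferInstance : M.Normal).conj_mem x (hQM x.2) h'
        · exact M.inv_mem (hQM x.2)
      · have h5 : (x : G) * (h' : G)⁻¹ * (x : G)⁻¹ ∈ H :=
          (Subgroup.mem_normalizer_iff.mp h3 _).mp (H.inv_mem h'.2)
        have h6 : (h' : G) * x * (h' : G)⁻¹ * (x : G)⁻¹ = h' * ((x : G) * (h' : G)⁻¹ * (x : G)⁻¹) := by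
          group
        rw [h6]
        exact H.mul_mem h'.2 h5
    exact mul_inv_eq_one.mp h4)
  exact exists_frobenius_of_fpf ψ hfpf

end Cfsg.Agent.H521.FpfSection
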